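import Cfsg.Agent.H9.AH0
import Cfsg.Agent.H2.SzGen

/-! No product of two classes is a class in the Suzuki groups. -/

set_option autoImplicit false
set_option linter.unusedSectionVars false

namespace Cfsg.Agent.L0.AR

open Matrix Finset Cfsg.Agent.H9.AH

section Gen
variable {K : Type*} [Field K] [Fintype K] [DecidableEq K]

theorem sum_wt (n k : ℕ) : ∑ x : Kˣ, (x : K) ^ (n * (Fintype.card K - 2)) * (x : K) ^ k =
    if k ≡ n [MOD Fintype.card K - 1] then -1 else 0 := by
  have h2 : 2 ≤ Fintype.card K := Fintype.one_lt_card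
  simp only [← pow_add]
  rw [FiniteField.sum_pow_units]
  refine if_congr ?_ rfl rfl
  obtain ⟨r, hr⟩ : ∃ r, Fintype.card K = r + 2 := ⟨_, (Nat.sub_add_cancel h2).symm⟩
  rw [hr, show r + 2 - 2 = r from rfl, show r + 2 - 1 = r + 1 from rfl, ← Nat.modEq_zero_iff_dvd]
  have e : n * r + n ≡ 0 [MOD r + 1] := Nat.modEq_zero_iff_dvd.2 ⟨n, by ring⟩
  exact ⟨fun h => Nat.ModEq.add_left_cancel' _ (h.trans e.symm), fun h => (h.add_left _).trans e⟩

theorem not_modEq {q k n : ℕ} (h : k ≠ n) (h1 : k < n + q) (h2 : n < k + q) : ¬ k ≡ n [MOD q] := fun e => by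
  rcases h.lt_or_gt with l | l
  · have := Nat.le_of_dvd (by omega) ((Nat.modEq_iff_dvd' l.le).1 e); omega
  · have := Nat.le_of_dvd (by omega) ((Nat.modEq_iff_dvd' l.le).1 e.symm); omega

theorem coef_zero (L : List (K × ℕ)) (c : K) (n : ℕ)
    (hL : ∀ p ∈ L, p.2 ≠ n ∧ p.2 + 1 < n + Fintype.card K ∧ n + 1 < p.2 + Fintype.card K)
    (h : ∀ x : K, x ≠ 0 → c * x ^ n + (L.map fun p => p.1 * x ^ p.2).sum = 0) : c = 0 := by
  have h2 : 2 ≤ Fintype.card K := Fintype.one_lt_card
  have h1 : ∑ x : Kˣ, (x : K) ^ (n * (Fintype.card K - 2)) * (L.map fun p => p.1 * (x : K) ^ p.2).sum = 0 := by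
    clear h
    induction L with
    | nil => simp
    | cons p L ih =>
      obtain ⟨a, b, d⟩ := hL p List.mem_cons_self
      simp only [List.map_cons, List.sum_cons, mul_add, sum_add_distrib, mul_left_comm _ p.1, ← mul_sum]
      rw [ih fun r hr => hL r (List.mem_cons_of_mem _ hr), sum_wt, if_neg (not_modEq a (by omega) (by omega))]
      simp
  have h3 : ∑ x : Kˣ, (x : K) ^ (n * (Fintype.card K - 2)) *
      (c * (x : K) ^ n + (L.map fun p => p.1 * (x : K) ^ p.2).sum) = 0 :=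
    sum_eq_zero fun x _ => by rw [h x x.ne_zero, mul_zero]
  simp only [mul_add, sum_add_distrib, h1, mul_left_comm _ c, ← mul_sum] at h3
  rw [sum_wt, if_pos (Nat.ModEq.refl _)] at h3
  simpa using h3

theorem tr_exp {ι : Type*} [Fintype ι] (A B M M' N N' P P' : Matrix ι ι K) : ∃ c0 c1 c2 c3 c4 : K, ∀ y z : K,
    (A * ((M + y • N + z • P) * B * (M' + y • N' + z • P'))).trace =
      (A * (N * B * N')).trace * y ^ 2 + (c0 + c1 * y + c2 * z + c3 * (z * y) + c4 * z ^ 2) :=
  ⟨(A * (M * B * M')).trace, (A * (N * B * M')).trace + (A * (M * B * N')).trace,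
    (A * (P * B * M')).trace + (A * (M * B * P')).trace, (A * (P * B * N')).trace + (A * (N * B * P')).trace,
    (A * (P * B * P')).trace, fun y z => by
  simp only [Matrix.add_mul, Matrix.mul_add, Matrix.smul_mul, Matrix.mul_smul, trace_add, trace_smul, smul_eq_mul]
  ring⟩

end Gen

section Suz
open Cfsg.Agent.H2 Cfsg.Agent.H2.Suz
variable {F : Type*} [Field F] {m : ℕ} [hF : SzF F m]
include hF

/-- the matrix representation -/
def szR (F : Type*) [Field F] (m : ℕ) : Sz F m →* Matrix (Fin 4) (Fin 4) F where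
  toFun := mat
  map_one' := rfl
  map_mul' := mat_mul

theorem sz_opp {a : Sz F m} (ha : a ≠ 1) : ∃ a', IsConj a a' ∧ mat a' 3 0 ≠ 0 := by
  by_contra h
  push Not at h
  refine ha (eq_one_of_fix_all fun p => ?_)
  obtain ⟨g, rfl⟩ := exists_smul_inf_eq p
  have h1 := h _ (isConj_conj' g a)
  rcases pt_cases ((g⁻¹ * a * g) • inf F m) with e | ⟨x, y, e⟩
  · rw [mul_smul, mul_smul, inv_smul_eq_iff] at e
    exact e
  · obtain ⟨c, hc⟩ := (smul_inf_eq_pt_iff _ x y).1 e
    have h3 := congrFun hc 3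
    rw [mulVec4] at h3
    have c0 : c = 0 := by simpa [ov, h1] using h3
    rw [c0, zero_smul] at hc
    exact absurd hc.symm (mat_mulVec_ne_zero _ e0_ne_zero)

theorem noCP_sz : NoCP (Sz F m) := fun a b c h => by
  classical
  have := Suz.finite F m
  have := Fintype.ofFinite F
  obtain ⟨a', ka, ha⟩ := sz_opp h.ha
  obtain ⟨b', kb, hb⟩ := sz_opp h.hb
  have H := (h.congr ka kb).trace (szR F m)
  have hq : Fintype.card F = 2 ^ (2 * m + 1) := by rw [← Nat.card_eq_fintype_card, SzF.card (m := m)]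
  have hm : 1 ≤ m := hF.2
  have p1 : 2 ^ (m + 1) * 2 ≤ 2 ^ (2 * m + 1) := by rw [← pow_succ]; exact Nat.pow_le_pow_right two_pos (by omega)
  have p2 : 2 ^ 2 ≤ 2 ^ (m + 1) := Nat.pow_le_pow_right two_pos (by omega)
  let N : F → Matrix (Fin 4) (Fin 4) F := fun x => !![0, 0, 1, x; 0, 0, 0, 1; 0, 0, 0, 0; 0, 0, 0, 0]
  let P : Matrix (Fin 4) (Fin 4) F := !![0, 0, 0, 1; 0, 0, 0, 0; 0, 0, 0, 0; 0, 0, 0, 0]
  have e1 : ∀ x y z : F, uM m x (y + z) = uM m x z + y • N x + th m y • P := fun x y z => by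
    ext i j
    fin_cases i <;> fin_cases j <;> simp [uM, N, P, ff, th_add] <;> ring
  have k1 : ∀ x, (mat a' * (N x * mat b' * N x)).trace = 0 := fun x => by
    obtain ⟨c0, c1, c2, c3, c4, E⟩ := tr_exp (mat a') (mat b') (uM m x 0) (uM m x (th m x * x)) (N x) (N x) P P
    refine coef_zero [(c0, 0), (c1, 1), (c2, 2 ^ (m + 1)), (c3, 2 ^ (m + 1) + 1), (c4, 2 ^ (m + 1) * 2),
      (-(mat c).trace, 0)] _ 2 (by simp only [List.forall_mem_cons, hq]; simp; omega) fun y _ => ?_
    have := H (u m x y)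
    change (mat a' * (mat (u m x y) * mat b' * mat (u m x y)⁻¹)).trace = (mat c).trace at this
    rw [u_inv, mat_u, mat_u, e1, ← add_zero y, e1, add_zero, E] at this
    simp only [List.map_cons, List.sum_cons, List.map_nil, List.sum_nil, pow_zero, pow_one, pow_succ _ (2 ^ (m + 1)),
      pow_mul]
    unfold th at this
    linear_combination this
  let N0 : Matrix (Fin 4) (Fin 4) F := !![0, 0, 1, 0; 0, 0, 0, 1; 0, 0, 0, 0; 0, 0, 0, 0]
  have e2 : ∀ x, N x = N0 + x • P + (0 : F) • P := fun x => by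
    ext i j
    fin_cases i <;> fin_cases j <;> simp [N, P, N0]
  have k2 : (mat a' * (P * mat b' * P)).trace = 0 := by
    obtain ⟨c0, c1, c2, c3, c4, E⟩ := tr_exp (mat a') (mat b') N0 N0 P P P P
    refine coef_zero [(c0, 0), (c1, 1)] _ 2 (by simp only [List.forall_mem_cons, hq]; simp; omega) fun y _ => ?_
    have := k1 y
    rw [e2, E] at this
    simp only [List.map_cons, List.sum_cons, List.map_nil, List.sum_nil, pow_zero, pow_one]
    linear_combination this
  simp [trace, Matrix.mul_apply, Fin.sum_univ_four, P, Matrix.vecMul, dotProduct, ha, hb] at k2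

theorem noCP_isoSz {G : Type*} [Group G] (h : Cfsg.Lie.IsoSuzuki G) : NoCP G := by
  obtain ⟨F, _, _, m, hm, hF, ⟨e⟩⟩ := h
  have := SzF.of_fintype hm hF
  exact noCP_sz.congr (e.trans (equivLie F m).symm)

end Suz

end Cfsg.Agent.L0.AR
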