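import Cfsg.Agent.L0.AR.A
import Cfsg.Agent.H2.ReeStruct

/-! No product of two classes is a class in the small Ree groups. -/

set_option autoImplicit false
set_option linter.unusedSectionVars false

namespace Cfsg.Agent.L0.AR

open Matrix Finset Cfsg.Agent.H9.AH Cfsg.Agent.H2 Cfsg.Agent.H2.Ree

theorem tr_exp4 {K ι : Type*} [Field K] [Fintype ι] (A B M N N' P P' Q : Matrix ι ι K) :
    ∃ c0 c1 c2 c3 c4 c5 c6 c7 : K, ∀ y z : K,
    (A * ((M + y • N + z • P + y ^ 2 • Q) * B * (M + y • N' + z • P' + y ^ 2 • Q))).trace =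
      (A * (Q * B * Q)).trace * y ^ 4 + (c0 + c1 * y + c2 * y ^ 2 + c3 * y ^ 3 + c4 * z + c5 * (z * y) +
        c6 * (z * y ^ 2) + c7 * z ^ 2) :=
  ⟨(A * (M * B * M)).trace, (A * (N * B * M)).trace + (A * (M * B * N')).trace,
    (A * (Q * B * M)).trace + (A * (M * B * Q)).trace + (A * (N * B * N')).trace,
    (A * (Q * B * N')).trace + (A * (N * B * Q)).trace,
    (A * (P * B * M)).trace + (A * (M * B * P')).trace, (A * (P * B * N')).trace + (A * (N * B * P')).trace,
    (A * (P * B * Q)).trace + (A * (Q * B * P')).trace, (A * (P * B * P')).trace, fun y z => by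
  simp only [Matrix.add_mul, Matrix.mul_add, Matrix.smul_mul, Matrix.mul_smul, trace_add, trace_smul, smul_eq_mul]
  ring⟩

variable {K : Type*} [Field K] {m : ℕ} [hK : ReeF K m]
include hK

theorem ree_opp {a : ReeG K m} (ha : a ≠ 1) : ∃ a', IsConj a a' ∧ rho a' 6 0 ≠ 0 := by
  by_contra H
  push Not at H
  refine ha (eq_one_of_fix_all fun p => ?_)
  obtain ⟨g, rfl⟩ := exists_smul_inf p
  have h1 := H _ (isConj_conj' g a)
  rcases bruhat (g⁻¹ * a * g) with e | ⟨x, y, z, k, x', y', z', e⟩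
  · have := fix_inf_iff.2 (show g⁻¹ * a * g ∈ Bo K from e)
    rw [mul_smul, mul_smul, inv_smul_eq_iff] at this
    exact this
  · rw [e, map_mul, map_mul, map_mul, rho_u, rho_h, rho_w, rho_u] at h1
    simp [Matrix.mul_apply, Fin.sum_univ_seven, uM, hM, wM, sg_ne_zero k.ne_zero] at h1

theorem noCP_ree : NoCP (ReeG K m) := fun a b c H0 => by
  classical
  have := Ree.finite K
  have := Fintype.ofFinite K
  obtain ⟨a', ka, ha⟩ := ree_opp H0.ha
  obtain ⟨b', kb, hb⟩ := ree_opp H0.hb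
  have H := (H0.congr ka kb).trace rho
  have hq : Fintype.card K = 3 ^ (2 * m + 1) := by rw [← Nat.card_eq_fintype_card, hK.card]
  have hm : 1 ≤ m := hK.2
  have p1 : 3 ^ (m + 1) * 3 ≤ 3 ^ (2 * m + 1) := by
    rw [← pow_succ]; exact Nat.pow_le_pow_right (by norm_num) (by omega)
  have p2 : 3 ^ 2 ≤ 3 ^ (m + 1) := Nat.pow_le_pow_right (by norm_num) (by omega)
  let N : Matrix (Fin 7) (Fin 7) K := single 0 3 (-1) + single 1 4 (-1) + single 2 5 1 + single 3 6 (-1)
  let P : Matrix (Fin 7) (Fin 7) K := single 0 5 (-1) + single 1 6 1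
  let Q : Matrix (Fin 7) (Fin 7) K := single 0 6 (-1)
  have e1 : ∀ y : K, uM 0 0 y = 1 + y • N + sg y • P + y ^ 2 • Q := fun y => by
    ext i j
    fin_cases i <;> fin_cases j <;> simp [uM, N, P, Q, nrm]
  have e2 : ∀ y : K, uM 0 (-0) (-y) = 1 + y • (-N) + sg y • (-P) + y ^ 2 • Q := fun y => by
    rw [neg_zero, e1]; simp
  obtain ⟨c0, c1, c2, c3, c4, c5, c6, c7, E⟩ := tr_exp4 (rho a') (rho b') 1 N (-N) P (-P) Q
  have k1 : (rho a' * (Q * rho b' * Q)).trace = 0 := by
    refine coef_zero [(c0, 0), (c1, 1), (c2, 2), (c3, 3), (c4, 3 ^ (m + 1)), (c5, 3 ^ (m + 1) + 1),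
      (c6, 3 ^ (m + 1) + 2), (c7, 3 ^ (m + 1) * 2), (-(rho c).trace, 0)] _ 4
      (by simp only [List.forall_mem_cons, hq]; simp; omega) fun y _ => ?_
    have := H (u 0 0 y)
    rw [u0_inv, rho_u, rho_u, e1, e2, E, sg_apply] at this
    simp only [List.map_cons, List.sum_cons, List.map_nil, List.sum_nil, pow_zero, pow_one, pow_add _ (3 ^ (m + 1)),
      pow_mul]
    linear_combination this
  simp [trace, Matrix.mul_apply, Fin.sum_univ_seven, Q, single_apply, ha, hb] at k1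

theorem noCP_isoRee {G : Type*} [Group G] (h : Cfsg.Lie.IsoRee G) : NoCP G := by
  obtain ⟨F, _, _, m, hm, hF, ⟨e⟩⟩ := h
  have := ReeF.of_fintype hm hF
  exact noCP_ree.congr e

end Cfsg.Agent.L0.AR
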